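import Cfsg.Agent.Lib.Chev.Homocyclic.Cases

/-!
Facts about the Weyl group of E₇ and about elements normalising a set of torus elements.
-/

set_option autoImplicit false

namespace Cfsg.Agent.Lib.Chev.E7SixtyFive

open Cfsg.Lie Cfsg.Agent.Lib Cfsg.Agent.Lib.Chev Polynomial Homocyclic
open Cfsg.Agent.Lib.Chev.CoxTorus (wMat sgPerm fnl fnl_sg cV cV_sg)

/-- No `n` of E₇ has `ε` simple and the other eigenvalues `±i`. -/
theorem e7_core {K : Type*} [Field K] {n : GL chevE7.Idx K} (hn : n ∈ chevE7.monomialSubgroup K) {ε : ℤ}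
    (hε2 : ε * ε = 1) {M N : Matrix (Fin chevE7.rank) (Fin chevE7.rank) ℤ} (hMdef : M = wMat E7.checked n)
    (hN : N = M * M + 1) (hMN : M * N = ε • N)
    (hminor : ∀ i i' j j', N i j * N i' j' = N i j' * N i' j) : False := by
  have hM4 : M * M * (M * M) = 1 := by
    have h1 : M * (M * N) = N := by rw [hMN, Matrix.mul_smul, hMN, smul_smul, hε2, one_smul]
    rw [← mul_assoc, hN, mul_add, mul_one, add_comm (M * M * (M * M))] at h1
    exact add_left_cancel h1
  have hM2n : wMat E7.checked (n * n) = M * M := hMdef ▸ CoxTorus.wMat_mul E7.checked hn hn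
  have hiso : M * cMat chevE7 * M.transpose = cMat chevE7 := hMdef ▸ isometry E7.checked laced_E7 hn
  have hiso2 : M * M * cMat chevE7 * (M * M).transpose = cMat chevE7 := by
    rw [← hM2n]; exact isometry E7.checked laced_E7 (mul_mem hn hn)
  have hsymA := cMat_symm E7.checked laced_E7
  have hMMA : M * M * cMat chevE7 = cMat chevE7 * (M * M).transpose := by
    conv_lhs => rw [← hiso2]
    rw [← mul_assoc, ← mul_assoc, hM4, one_mul]
  have hSsym : (N * cMat chevE7).transpose = N * cMat chevE7 := by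
    rw [hN, add_mul, one_mul, Matrix.transpose_add, Matrix.transpose_mul, hsymA, ← hMMA]
  have hN2 : N * N = (2 : ℤ) • N := by
    rw [two_smul, hN, add_mul, mul_add, mul_add, hM4]
    simp only [mul_one, one_mul]
    abel
  have hN0 : N ≠ 0 := by
    intro h
    have h1 := congrArg Matrix.det (eq_neg_of_add_eq_zero_left (hN ▸ h : M * M + 1 = 0))
    rw [Matrix.det_mul, Matrix.det_neg, Matrix.det_one, Fintype.card_fin] at h1
    have h7 : (-1 : ℤ) ^ chevE7.rank = -1 := by rw [rank_E7]; norm_num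
    rw [h7] at h1
    exact sq_ne_neg_one h1
  have hS0 : N * cMat chevE7 ≠ 0 := fun h => hN0 (by
    have h2 : (N * cMat chevE7) * bMat7 = 0 := by rw [h, zero_mul]
    rw [mul_assoc, cMat_bMat7, Matrix.mul_smul, mul_one] at h2
    exact (smul_eq_zero.1 h2).resolve_left (by norm_num))
  obtain ⟨k, z, b, hk, hb, hS⟩ := rank_one hS0 hSsym (minors_mul hminor)
  obtain ⟨-, hkb⟩ := outer cMat_bMat7 hS hN2 (fun h => hN0 ((smul_eq_zero.1 h).resolve_left (by norm_num)))
  have heven : ∀ i, (2 : ℤ) ∣ (N * cMat chevE7) i i := by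
    intro i
    have h1 : M * M * M * cMat chevE7 = (M * cMat chevE7).transpose := by
      rw [Matrix.transpose_mul, hsymA]
      calc M * M * M * cMat chevE7 = M * M * M * (M * cMat chevE7 * M.transpose) := by rw [hiso]
        _ = (M * M * (M * M)) * cMat chevE7 * M.transpose := by simp only [mul_assoc]
        _ = cMat chevE7 * M.transpose := by rw [hM4, one_mul]
    have h2 : ε • (N * cMat chevE7) = M * M * M * cMat chevE7 + M * cMat chevE7 := by
      rw [← Matrix.smul_mul, ← hMN, hN, mul_add, mul_one, add_mul, ← mul_assoc M M M]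
    have h3 := congrFun (congrFun h2 i) i
    rw [h1, Matrix.smul_apply, Matrix.add_apply, Matrix.transpose_apply, smul_eq_mul] at h3
    refine Dvd.intro (ε * (M * cMat chevE7) i i) ?_
    calc 2 * (ε * (M * cMat chevE7) i i) = ε * ((M * cMat chevE7) i i + (M * cMat chevE7) i i) := by ring
      _ = (N * cMat chevE7) i i := by rw [← h3, ← mul_assoc, hε2, one_mul]
  have h2k : (2 : ℤ) ∣ k := by
    by_contra h2
    have h1 : ∀ i, (2 : ℤ) ∣ z i := fun i => by
      have := heven i
      rw [hS, mul_assoc] at this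
      exact ((Int.prime_two.dvd_or_dvd ((Int.prime_two.dvd_or_dvd this).resolve_left h2)).elim id id)
    have : (2 : ℤ) ∣ 1 := hb ▸ Finset.dvd_sum fun i _ => (h1 i).mul_left (b i)
    norm_num at this
  have hkpos : 0 < k := by
    refine lt_of_le_of_ne ?_ hk.symm
    obtain ⟨i, hi⟩ : ∃ i, z i ≠ 0 := by
      by_contra h
      push Not at h
      simp [h] at hb
    have h1 := diag_ge E7.checked laced_E7 (mul_mem hn hn) i
    rw [hM2n] at h1
    have h2 := hS i i
    rw [hN, add_mul, one_mul, Matrix.add_apply] at h2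
    have h3 : cMat chevE7 i i = 2 := (by decide +kernel : ∀ i, cMat chevE7 i i = 2) i
    exact nonneg_of_diag h1 h2 h3 hi
  obtain ⟨k', rfl⟩ := h2k
  obtain ⟨L, W, hq⟩ := quad7 z
  have hβ := beta_small (by norm_num) hkpos hkb
  set β := Matrix.vecMul z bMat7 ⬝ᵥ z
  have hcast : ((β : ℤ) : ZMod 4) = 3 * (L : ZMod 4) ^ 2 := by
    rw [hq]; push_cast; rw [show (4 : ZMod 4) = 0 from by decide, zero_mul, add_zero]
  have hnot : ∀ L : ZMod 4, 3 * L ^ 2 ≠ 1 ∧ 3 * L ^ 2 ≠ 2 := by decide
  rcases hβ with hβ | hβ <;> rw [hβ] at hcast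
  · exact (hnot _).1 (by rw [← hcast, Int.cast_one])
  · exact (hnot _).2 (by rw [← hcast]; exact Int.cast_ofNat 2)


variable {D : ChevalleyDatum} {T : Fast} {F : Type*} [Field F]

/-- An element intertwining enough pairs of torus elements is monomial. -/
theorem mono_of_pairs (C : Checked D T) {g : GL D.Idx F} (hg : g ∈ D.group F)
    (S : Set ((Fin D.rank → Fˣ) × (Fin D.rank → Fˣ))) (hS : ∀ p ∈ S, C.torus p.2 * g = g * C.torus p.1)
    (h1 : ∀ r, D.IsPosRoot r → ∃ p ∈ S, C.chrOf p.1 r ≠ 1)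
    (h2 : ∀ r, D.IsPosRoot r → ∃ p ∈ S, C.chrOf p.2 r ≠ 1) : g ∈ D.monomialSubgroup F := by
  obtain ⟨b, hb, n, hn, u, hu, rfl⟩ := C.exists_bnu hg
  obtain ⟨v, hv, d, hd, rfl⟩ := C.mem_borel.1 hb
  have hconj : ∀ (e : Fin D.rank → Fˣ) (t : ℕ → F) (l : List ℕ), (∀ r ∈ l, r < D.nroots) →
      C.torus e * C.wg (l.map fun r => (r, t r)) * (C.torus e)⁻¹ =
        C.wg (l.map fun r => (r, C.chrOf e r * t r)) := by
    intro e t l
    induction l with
    | nil => intro _; simp [C.wg_nil]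
    | cons r l ih =>
      intro hl
      rw [List.map_cons, List.map_cons, C.wg_cons, C.wg_cons, ← C.torus_xg e (hl r (by simp)),
        ← ih fun x hx => hl x (by simp [hx])]
      group
  have htriv : ∀ (w : GL D.Idx F), w ∈ D.posUnipotent F →
      (∀ r, D.IsPosRoot r → ∃ e, C.chrOf e r ≠ 1 ∧ C.torus e * w * (C.torus e)⁻¹ = w) → w = 1 := by
    intro w hw hfix
    rw [posUnipotent_eq] at hw
    obtain ⟨t, -, rfl⟩ := C.exists_coord C.closedSet_pos hw
    have h0 : ∀ r ∈ C.rootList {r | D.IsPosRoot r}, t r = 0 := fun r hr => by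
      obtain ⟨e, he, hef⟩ := hfix r (C.mem_rootList.1 hr).2
      rw [hconj e t _ fun r hr => (C.mem_rootList.1 hr).1] at hef
      have h1 := C.ordered_inj _ (C.rootList_sorted _) (fun x hx => (C.mem_rootList.1 hx).2)
        (fun x => C.chrOf e x * t x) t hef r hr
      by_contra h2
      exact he (mul_right_cancel₀ h2 (by rwa [one_mul]))
    have hall : ∀ l : List ℕ, (∀ r ∈ l, t r = 0) → (∀ r ∈ l, r < D.nroots) →
        C.wg (l.map fun r => (r, t r)) = 1 := by
      intro l
      induction l with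
      | nil => intros; simp [C.wg_nil]
      | cons r l ih =>
        intro h1 h2
        rw [List.map_cons, C.wg_cons, h1 r (by simp), ih (fun x hx => h1 x (by simp [hx]))
          (fun x hx => h2 x (by simp [hx])), mul_one, C.xg_zero]
    exact hall _ h0 fun r hr => (C.mem_rootList.1 hr).1
  have hupos : u ∈ D.posUnipotent F := by
    rw [posUnipotent_eq]
    exact grp_mem_mono hu fun r hr => hr.1
  have hpair : ∀ p ∈ S, C.torus p.2 * v * (C.torus p.2)⁻¹ = v ∧ C.torus p.1 * u * (C.torus p.1)⁻¹ = u := by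
    intro p hp
    have hc := hS p hp
    set h := C.torus p.1 with hhdef
    set h' := C.torus p.2 with hh'def
    have hh : h ∈ D.diagonalSubgroup F := C.torus_mem p.1
    have hh' : h' ∈ D.diagonalSubgroup F := C.torus_mem p.2
    set k := h' * n * h⁻¹ * n⁻¹ with hk
    have hkd : k ∈ D.diagonalSubgroup F := by
      have := mul_mem hh' (C.mono_conj_diag hn _ (inv_mem hh))
      convert this using 1
      rw [hk]; group
    have hu' : h * u * h⁻¹ ∈ grp D F (C.inv n) := C.diag_normalizes (fun r hr => hr.1.1) hh hu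
    have hb' : h' * (v * d) * h'⁻¹ * k ∈ D.borelSubgroup F :=
      mul_mem (mul_mem (mul_mem (Subgroup.mem_sup_right hh') hb) (inv_mem (Subgroup.mem_sup_right hh')))
        (Subgroup.mem_sup_right hkd)
    have e : (h' * (v * d) * h'⁻¹ * k) * n * (h * u * h⁻¹) = v * d * n * u := by
      calc (h' * (v * d) * h'⁻¹ * k) * n * (h * u * h⁻¹) = h' * (v * d * n * u) * h⁻¹ := by rw [hk]; group
        _ = v * d * n * u := by rw [hc, mul_inv_cancel_right]
    obtain ⟨hbb, huu⟩ := (C.bnu_unique hb' hb hn hn hu' hu e).2 rfl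
    have hz : v⁻¹ * (h' * v * h'⁻¹) = d * (d * k)⁻¹ := by
      have hdh : h' * d * h'⁻¹ = d := by rw [C.diag_comm hh' hd, mul_inv_cancel_right]
      calc v⁻¹ * (h' * v * h'⁻¹) = v⁻¹ * (h' * (v * d) * h'⁻¹ * k) * (h' * d * h'⁻¹ * k)⁻¹ := by group
        _ = d * (d * k)⁻¹ := by rw [hbb, hdh]; group
    have hz1 : v⁻¹ * (h' * v * h'⁻¹) = 1 :=
      C.eq_one_of_uni_mono (mul_mem (inv_mem hv) (C.diag_normalizes_pos hh' hv))
        (hz ▸ C.diag_le_monomial (mul_mem hd (inv_mem (mul_mem hd hkd))))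
    exact ⟨(inv_mul_eq_one.1 hz1).symm, huu⟩
  have hv1 : v = 1 := htriv v hv fun r hr => by
    obtain ⟨p, hp, hne⟩ := h2 r hr
    exact ⟨p.2, hne, (hpair p hp).1⟩
  have hu1 : u = 1 := htriv u hupos fun r hr => by
    obtain ⟨p, hp, hne⟩ := h1 r hr
    exact ⟨p.1, hne, (hpair p hp).2⟩
  rw [hv1, hu1, one_mul, mul_one]
  exact mul_mem (C.diag_le_monomial hd) hn

/-- The matrix of a permutation of roots. -/
def pMat (T : Fast) (D : ChevalleyDatum) (hs : ∀ j < D.rank, D.simple j < D.nroots)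
    (π : Equiv.Perm (Fin D.nroots)) : Matrix (Fin D.rank) (Fin D.rank) ℤ :=
  Matrix.of fun j k => T.aux.coef (π ⟨D.simple j, hs j j.2⟩ : ℕ) k

theorem pMat_sgPerm (C : Checked D T) (m : ↥(D.monomialSubgroup F)) :
    pMat T D (fun j hj => C.root.simple_lt j hj) (sgPerm C m) = wMat C m.1 := rfl

theorem pMat_mul (C : Checked D T) {x y : Equiv.Perm (Fin D.nroots)} (hx : x ∈ (sgPerm (F := F) C).range)
    (hy : y ∈ (sgPerm (F := F) C).range) :
    pMat T D (fun j hj => C.root.simple_lt j hj) (x * y) =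
      pMat T D (fun j hj => C.root.simple_lt j hj) y * pMat T D (fun j hj => C.root.simple_lt j hj) x := by
  obtain ⟨m, rfl⟩ := hx
  obtain ⟨m', rfl⟩ := hy
  rw [← map_mul, pMat_sgPerm, pMat_sgPerm, pMat_sgPerm, Subgroup.coe_mul]
  exact CoxTorus.wMat_mul C m.2 m'.2

theorem pow_card_ne {r : ℕ} [hr : Fact r.Prime] {k : ℕ} {q : ℕ} (hrq : ¬ r ∣ q) : ((q ^ k : ℕ) : ZMod r) ≠ 0 :=
  fun h => hrq (hr.out.dvd_of_dvd_pow ((ZMod.natCast_eq_zero_iff _ r).1 h))

theorem eval_ne_of_mul {r m d : ℕ} [Fact r.Prime] (hrm : ¬ r ∣ m) {μ : ZMod r} (hμ : orderOf μ = d) (hd : d ∣ m)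
    (hd0 : 0 < d) {g : ℤ[X]} (hg : X ^ m - 1 = cyclotomic d ℤ * g) :
    (g.map (Int.castRingHom (ZMod r))).eval μ ≠ 0 := by
  intro h
  have : NeZero (d : ZMod r) := ⟨fun h0 => hrm (((ZMod.natCast_eq_zero_iff d r).1 h0).trans hd)⟩
  have hroot : (cyclotomic d (ZMod r)).IsRoot μ :=
    isRoot_cyclotomic_iff.2 (hμ ▸ IsPrimitiveRoot.orderOf μ)
  have h1 := congrArg (fun f => (derivative (f.map (Int.castRingHom (ZMod r)))).eval μ) hg
  rw [IsRoot] at hroot
  simp only [Polynomial.map_sub, Polynomial.map_pow, map_X, Polynomial.map_one, Polynomial.map_mul, map_cyclotomic,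
    derivative_sub, derivative_X_pow, derivative_one, sub_zero, derivative_mul, eval_add, eval_mul, eval_C, eval_pow,
    eval_X, h, hroot, mul_zero, zero_mul, add_zero] at h1
  have hμ0 : μ ≠ 0 := fun h0 => by
    rw [h0, orderOf_zero] at hμ
    omega
  rcases mul_eq_zero.1 h1 with h2 | h2
  · exact hrm ((ZMod.natCast_eq_zero_iff m r).1 h2)
  · exact pow_ne_zero _ hμ0 h2

/-- Independence of an orbit of a vector killed by an irreducible polynomial. -/
theorem finrank_orbit {l d : ℕ} (hd0 : 0 < d) {N : Matrix (Fin l) (Fin l) ℚ} {z : Fin l → ℚ} (hz : z ≠ 0)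
    (hkill : (aeval N (cyclotomic d ℚ)).mulVec z = 0) (V : Submodule ℚ (Fin l → ℚ))
    (hV : ∀ i : ℕ, (N ^ i).mulVec z ∈ V) : d.totient ≤ Module.finrank ℚ V := by
  have hli : LinearIndependent ℚ (fun i : Fin d.totient => (⟨_, hV i⟩ : V)) := by
    rw [Fintype.linearIndependent_iff]
    intro c hc
    let f : ℚ[X] := ∑ i : Fin d.totient, monomial (i : ℕ) (c i)
    have hf : (aeval N f).mulVec z = 0 := by
      have h1 := congrArg Subtype.val hc
      rw [Submodule.coe_sum] at h1
      rw [map_sum, Matrix.sum_mulVec]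
      refine Eq.trans (Finset.sum_congr rfl fun i _ => ?_) h1
      rw [aeval_monomial, ← Algebra.smul_def, Matrix.smul_mulVec]
      rfl
    have hcoef : ∀ i : Fin d.totient, f.coeff i = c i := fun i => by
      simp only [f, finsetSum_coeff, coeff_monomial]
      rw [Finset.sum_eq_single i (fun j _ hj => if_neg fun h => hj (Fin.ext h))
        (fun h => absurd (Finset.mem_univ i) h), if_pos rfl]
    by_contra hne
    have hf0 : f ≠ 0 := fun h => hne fun i => by rw [← hcoef, h, coeff_zero]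
    have hnd : ¬ cyclotomic d ℚ ∣ f := fun h => by
      have h1 := natDegree_le_of_dvd h hf0
      rw [natDegree_cyclotomic] at h1
      have h2 : f.natDegree < d.totient := by
        have ht := Nat.totient_pos.2 hd0
        refine lt_of_le_of_lt (natDegree_sum_le_of_forall_le _ _ fun i _ => ?_) (Nat.sub_lt ht one_pos)
        exact (natDegree_monomial_le _).trans (Nat.le_sub_one_of_lt i.2)
      omega
    obtain ⟨u, w, huw⟩ := ((cyclotomic.irreducible_rat hd0).coprime_iff_not_dvd).2 hnd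
    have h1 := congrArg (fun p => (aeval N p).mulVec z) huw
    simp only [map_add, map_mul, map_one, Matrix.one_mulVec, Matrix.add_mulVec, ← Matrix.mulVec_mulVec, hkill, hf,
      Matrix.mulVec_zero, add_zero] at h1
    exact hz h1.symm
  have := hli.fintype_card_le_finrank
  rwa [Fintype.card_fin] at this

/-- An element of order five fixing an eigenvector of order twelve modulo `13` is trivial. -/
theorem stab_five {K : Type*} [Field K] [hp : Fact (Nat.Prime 13)] {n : GL chevE7.Idx K}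
    (hn : n ∈ chevE7.monomialSubgroup K) {a : Fin chevE7.rank → ZMod 13} (ha : a ≠ 0) {μ : ZMod 13}
    (hμ : orderOf μ = 12) (heig : ∀ v < chevE7.nroots, fnl E7.fast chevE7 a (E7.checked.sg n v) = μ * fnl E7.fast chevE7 a v)
    {π : Equiv.Perm (Fin chevE7.nroots)} (hπ : π ∈ (sgPerm (F := K) E7.checked).range) (h5 : π ^ 5 = 1)
    (hfix : ∀ v, fnl E7.fast chevE7 a (π v : ℕ) = fnl E7.fast chevE7 a (v : ℕ)) : π = 1 := by
  classical
  have : Fact (Nat.Prime 5) := ⟨Nat.prime_five⟩
  set C := E7.checked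
  by_contra hπ1
  let lamF : Fin chevE7.nroots → ZMod 13 := fun v => fnl E7.fast chevE7 a v
  let St : Subgroup (Equiv.Perm (Fin chevE7.nroots)) :=
    { carrier := {π | ∀ v, lamF (π v) = lamF v}
      one_mem' := fun v => rfl
      mul_mem' := fun {x y} hx hy v => (hx _).trans (hy v)
      inv_mem' := fun {x} hx v => by
        conv_rhs => rw [← x.apply_symm_apply v]
        exact (hx (x.symm v)).symm }
  let H := (sgPerm (F := K) C).range ⊓ St
  set σ := sgPerm C (⟨n, hn⟩ : ↥(chevE7.monomialSubgroup K)) with hσ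
  have hσ' : ∀ v, lamF (σ v) = μ * lamF v := fun v => heig v v.2
  have hμ0 : μ ≠ 0 := fun h => by rw [h, orderOf_zero] at hμ; omega
  have hσinv : ∀ v, lamF (σ.symm v) = μ⁻¹ * lamF v := fun v => by
    conv_rhs => rw [← σ.apply_symm_apply v, hσ', ← mul_assoc, inv_mul_cancel₀ hμ0, one_mul]
  have hnorm : ∀ x ∈ H, σ * x * σ⁻¹ ∈ H := by
    intro x hx
    have hσr : σ ∈ (sgPerm (F := K) C).range := ⟨_, rfl⟩
    refine Subgroup.mem_inf.2 ⟨mul_mem (mul_mem hσr (Subgroup.mem_inf.1 hx).1) (inv_mem hσr), fun v => ?_⟩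
    show lamF (σ (x (σ.symm v))) = lamF v
    rw [hσ', hx.2, hσinv, ← mul_assoc, mul_inv_cancel₀ hμ0, one_mul]
  have hd5 : 5 ∣ Nat.card H := by
    have h1 : orderOf (⟨π, hπ, hfix⟩ : H) = 5 := by
      refine orderOf_eq_prime (Subtype.ext h5) fun h => hπ1 (congrArg Subtype.val h)
    exact h1 ▸ orderOf_dvd_natCard _
  obtain ⟨Q⟩ : Nonempty (Sylow 5 H) := inferInstance
  let τ : H →* H :=
    { toFun := fun x => ⟨σ * x.1 * σ⁻¹, hnorm x.1 x.2⟩
      map_one' := Subtype.ext (by simp)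
      map_mul' := fun x y => Subtype.ext (show σ * (x.1 * y.1) * σ⁻¹ = σ * x.1 * σ⁻¹ * (σ * y.1 * σ⁻¹) by group) }
  have hτ : Function.Injective τ := fun x y h =>
    Subtype.ext (mul_left_cancel (mul_right_cancel (congrArg Subtype.val h)))
  let Q2 : Sylow 5 H := Sylow.ofCard ((Q : Subgroup H).map τ) (by
    rw [Subgroup.card_map_of_injective hτ, Q.card_eq_multiplicity])
  obtain ⟨s, hs⟩ := MulAction.exists_smul_eq H Q2 Q
  let Q' : Subgroup (Equiv.Perm (Fin chevE7.nroots)) := (Q : Subgroup H).map H.subtype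
  set σ' := s.1 * σ with hσ'def
  have hQn : ∀ x ∈ Q', σ' * x * σ'⁻¹ ∈ Q' := by
    rintro _ ⟨x, hx, rfl⟩
    refine ⟨s * τ x * s⁻¹, ?_, ?_⟩
    · show s * τ x * s⁻¹ ∈ (Q : Subgroup H)
      rw [← hs, Sylow.smul_def, Sylow.pointwise_smul_def, Subgroup.mem_pointwise_smul_iff_inv_smul_mem]
      simp only [← map_inv, MulAut.smul_def, MulAut.conj_apply, inv_inv]
      rw [show s⁻¹ * (s * τ x * s⁻¹) * s = τ x by group]
      exact ⟨x, hx, rfl⟩
    · show s.1 * (σ * x.1 * σ⁻¹) * s.1⁻¹ = s.1 * σ * x.1 * (s.1 * σ)⁻¹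
      group
  have hσ'r : σ' ∈ (sgPerm (F := K) C).range := mul_mem s.2.1 ⟨_, rfl⟩
  have hσ'e : ∀ v, lamF (σ' v) = μ * lamF v := fun v => (s.2.2 (σ v)).trans (hσ' v)
  set P := pMat E7.fast chevE7 fun j hj => C.root.simple_lt j hj with hP
  let E := ∑ x : Q', P x.1
  have hQr : ∀ x : Q', x.1 ∈ (sgPerm (F := K) C).range := by
    rintro ⟨_, x, -, rfl⟩; exact x.2.1
  have hEU : ∀ x : Q', P x.1 * E = E := fun x => by
    rw [Finset.mul_sum]
    refine Fintype.sum_equiv (Equiv.mulRight x) _ _ fun y => ?_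
    exact (pMat_mul (F := K) C (hQr y) (hQr x)).symm
  set N := P σ' with hN
  let conjQ : Q' → Q' := fun x => ⟨σ' * x.1 * σ'⁻¹, hQn x.1 x.2⟩
  have hbij : Function.Bijective conjQ := Finite.injective_iff_bijective.1 fun x y h =>
    Subtype.ext (mul_left_cancel (mul_right_cancel (congrArg Subtype.val h)))
  have hcomm : Commute E N := by
    show E * N = N * E
    rw [Finset.sum_mul, Finset.mul_sum]
    refine Fintype.sum_equiv (Equiv.ofBijective conjQ hbij) _ _ fun x => ?_
    show P x.1 * P σ' = P σ' * P (σ' * x.1 * σ'⁻¹)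
    rw [hP, ← pMat_mul (F := K) C hσ'r (hQr x),
      ← pMat_mul (F := K) C (mul_mem (mul_mem hσ'r (hQr x)) (inv_mem hσ'r)) hσ'r, inv_mul_cancel_right]
  -- the period
  set m := orderOf σ' with hm
  have hm0 : 0 < m := orderOf_pos _
  have hrm : ¬ 13 ∣ m := by
    intro h
    have h1 : m ∣ Nat.card (sgPerm (F := K) C).range := Subgroup.orderOf_dvd_natCard _ hσ'r
    rw [card_range_sgPerm] at h1
    have h2 : ((Nat.card (C.W K) : ℕ) : ℤ) = 2903040 := by
      rw [C.card_W, C.tables.rank]; decide +kernel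
    have h3 : Nat.card (C.W K) = 2903040 := by exact_mod_cast h2
    rw [h3] at h1
    exact absurd (h.trans h1) (by decide)
  have hNm : N ^ m = 1 := by
    obtain ⟨m', hm'⟩ := hσ'r
    rw [hN, ← hm', hP, pMat_sgPerm, ← CoxTorus.wMat_pow C m'.2]
    refine CoxTorus.wMat_eq_one C fun v hv => ?_
    have h := congrArg (fun π : Equiv.Perm (Fin chevE7.nroots) => (π ⟨v, hv⟩ : ℕ)) (pow_orderOf_eq_one σ')
    simp only [Equiv.Perm.coe_one, id_eq] at h
    rw [← hm, ← hm', ← map_pow, CoxTorus.val_sgPerm, SubmonoidClass.coe_pow] at h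
    exact h
  let ι : Matrix (Fin chevE7.rank) (Fin chevE7.rank) ℤ →+* Matrix (Fin chevE7.rank) (Fin chevE7.rank) (ZMod 13) :=
    (Int.castRingHom (ZMod 13)).mapMatrix
  have hNa : (ι N).mulVec a = μ • a := by
    funext j
    have h := hσ'e ⟨chevE7.simple j, C.root.simple_lt j j.2⟩
    simp only [lamF, CoxTorus.fnl_simple C] at h
    exact h
  have hNpow : ∀ k : ℕ, (ι N ^ k).mulVec a = μ ^ k • a := by
    intro k
    induction k with
    | zero => simp
    | succ k ih => rw [pow_succ', ← Matrix.mulVec_mulVec, ih, Matrix.mulVec_smul, hNa, smul_smul, pow_succ]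
  have h12 : 12 ∣ m := by
    rw [← hμ]
    refine orderOf_dvd_of_pow_eq_one ?_
    have h := hNpow m
    rw [← map_pow, hNm, map_one, Matrix.one_mulVec] at h
    by_contra hne
    apply ha
    have h' : (μ ^ m - 1) • a = 0 := by rw [sub_smul, one_smul, ← h, sub_self]
    exact (smul_eq_zero.1 h').resolve_left (sub_ne_zero.2 hne)
  obtain ⟨g, hg⟩ : cyclotomic 12 ℤ ∣ X ^ m - 1 := by
    rw [← prod_cyclotomic_eq_X_pow_sub_one hm0]
    exact Finset.dvd_prod_of_mem _ (Nat.mem_divisors.2 ⟨h12, hm0.ne'⟩)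
  let b := (aeval N g).mulVec (fun k => ((a k).val : ℤ))
  have hb : (aeval N (cyclotomic 12 ℤ)).mulVec b = 0 := by
    rw [Matrix.mulVec_mulVec, ← map_mul, ← hg, map_sub, map_pow, aeval_X, map_one, hNm, sub_self, Matrix.zero_mulVec]
  set z := E.mulVec b with hz
  have hzkill : (aeval N (cyclotomic 12 ℤ)).mulVec z = 0 := by
    have hc : Commute E (aeval N (cyclotomic 12 ℤ)) := by
      have h : Commute N E := hcomm.symm
      induction cyclotomic 12 ℤ using Polynomial.induction_on' with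
      | add f g hf hg => rw [map_add]; exact hf.add_right hg
      | monomial k c =>
        rw [aeval_monomial, ← Algebra.smul_def]
        exact (hcomm.pow_right k).smul_right c
    rw [hz, Matrix.mulVec_mulVec, ← hc.eq, ← Matrix.mulVec_mulVec, hb, Matrix.mulVec_zero]
  have hzmod : (fun k => ((z k : ℤ) : ZMod 13)) ≠ 0 := by
    have hmv : ∀ (A : Matrix (Fin chevE7.rank) (Fin chevE7.rank) ℤ) (w : Fin chevE7.rank → ℤ),
        (fun k => ((A.mulVec w k : ℤ) : ZMod 13)) = (ι A).mulVec fun k => ((w k : ℤ) : ZMod 13) := fun A w => by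
      funext k; simp [ι, Matrix.mulVec, dotProduct]
    have ha0 : (fun k => (((a k).val : ℤ) : ZMod 13)) = a := funext fun k => by simp
    have hEa : (ι E).mulVec a = (Nat.card Q' : ZMod 13) • a := by
      rw [map_sum, Matrix.sum_mulVec, Finset.sum_congr rfl (fun x _ => show (ι (P x.1)).mulVec a = a from ?_),
        Finset.sum_const, Finset.card_univ, ← Nat.card_eq_fintype_card, ← Nat.cast_smul_eq_nsmul (ZMod 13)]
      obtain ⟨_, y, -, rfl⟩ := x
      funext j
      have h := y.2.2 ⟨chevE7.simple j, C.root.simple_lt j j.2⟩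
      simp only [lamF, CoxTorus.fnl_simple C] at h
      exact h
    rw [hz, hmv, hmv, ha0, show ι (aeval N g) = aeval (ι N) (g.map (Int.castRingHom (ZMod 13))) from
        (CoxTorus.cast_aeval (ZMod 13) N g).symm, CoxTorus.aeval_mulVec_eigen hNa, Matrix.mulVec_smul, hEa,
      smul_smul]
    refine smul_ne_zero (mul_ne_zero (eval_ne_of_mul hrm hμ h12 (by norm_num) hg) ?_) ha
    obtain ⟨k, hk⟩ := (Q.isPGroup'.map H.subtype).exists_card_eq
    rw [show Nat.card Q' = 5 ^ k from hk]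
    exact pow_card_ne (by decide)
  obtain ⟨x, hx⟩ : ∃ x : Q', orderOf x = 5 := by
    refine exists_prime_orderOf_dvd_card' 5 ?_
    rw [Subgroup.card_map_of_injective H.subtype_injective]
    exact Q.dvd_card_of_dvd_card hd5
  set U := P x.1 with hU
  have hU5 : U ^ 5 = 1 := by
    obtain ⟨m', hm'⟩ := hQr x
    rw [hU, ← hm', hP, pMat_sgPerm, ← CoxTorus.wMat_pow C m'.2]
    refine CoxTorus.wMat_eq_one C fun v hv => ?_
    have h5' : x.1 ^ 5 = 1 := by rw [← hx]; exact congrArg Subtype.val (pow_orderOf_eq_one x)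
    have h := congrArg (fun π : Equiv.Perm (Fin chevE7.nroots) => (π ⟨v, hv⟩ : ℕ)) h5'
    simp only [Equiv.Perm.coe_one, id_eq] at h
    rw [← hm', ← map_pow, CoxTorus.val_sgPerm, SubmonoidClass.coe_pow] at h
    exact h
  obtain ⟨t, ht, hchar, hsum⟩ := exists_multiset (by norm_num : 0 < 5) hU5
  have h4le : 4 ≤ t.count 1 := by
    let ιQ : Matrix (Fin chevE7.rank) (Fin chevE7.rank) ℤ →+* Matrix (Fin chevE7.rank) (Fin chevE7.rank) ℚ :=
      (Int.castRingHom ℚ).mapMatrix
    have hmv : ∀ (A : Matrix (Fin chevE7.rank) (Fin chevE7.rank) ℤ) (w : Fin chevE7.rank → ℤ),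
        (fun k => ((A.mulVec w k : ℤ) : ℚ)) = (ιQ A).mulVec fun k => ((w k : ℤ) : ℚ) := fun A w => by
      funext k; simp [ιQ, Matrix.mulVec, dotProduct]
    refine le_trans ?_ (rootMultiplicity_le (K := ℚ) (μ := 1) (fun e he =>
      ⟨Nat.cast_ne_zero.2 (Nat.pos_of_dvd_of_pos (ht e he) (by norm_num)).ne'⟩) hchar orderOf_one)
    rw [← Matrix.charpoly_toLin']
    refine le_trans ?_ (LinearMap.finrank_eigenspace_le _ _)
    refine le_trans (le_of_eq (show 4 = Nat.totient 12 by decide))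
      (finrank_orbit (by norm_num) (N := ιQ N) (z := fun k => ((z k : ℤ) : ℚ)) ?_ ?_ _ fun i => ?_)
    · intro h
      apply hzmod
      funext k
      rw [show z k = 0 from Int.cast_injective (α := ℚ) (by simpa using congrFun h k)]
      simp
    · rw [← map_cyclotomic 12 (Int.castRingHom ℚ), show aeval (ιQ N) ((cyclotomic 12 ℤ).map (Int.castRingHom ℚ)) =
        ιQ (aeval N (cyclotomic 12 ℤ)) from CoxTorus.cast_aeval ℚ N _, ← hmv, hzkill]
      funext k; simp
    · rw [Module.End.mem_eigenspace_iff, Matrix.toLin'_apply, one_smul, ← map_pow, ← hmv]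
      show (ιQ U).mulVec _ = _
      rw [← hmv]
      funext k
      simp only [hz, Matrix.mulVec_mulVec]
      rw [← (hcomm.pow_right i).eq, ← mul_assoc, hEU]
  have hsp := sum_split t 1
  rw [hsum, rank_E7, Nat.totient_one, mul_one] at hsp
  have hall : ∀ e ∈ t, e = 1 := by
    intro e he
    by_contra hne
    have he5 : e = 5 := (Nat.dvd_prime Nat.prime_five).1 (ht e he) |>.resolve_left hne
    have : (4 : ℕ) ≤ ((t.filter fun e => e ≠ 1).map Nat.totient).sum := by
      refine le_trans (le_of_eq ?_) (Multiset.le_sum_of_mem (Multiset.mem_map_of_mem _ (Multiset.mem_filter.2 ⟨he, hne⟩)))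
      rw [he5]; decide
    omega
  have hU1 := aeval_eq_zero_of_top (by norm_num : 0 < 5) hU5 ht hchar (t := {1}) (fun e he => by simp [hall e he])
  rw [Finset.prod_singleton, cyclotomic_one, map_sub, aeval_X, map_one, sub_eq_zero] at hU1
  have hx1 : x.1 = 1 := by
    obtain ⟨m', hm'⟩ := hQr x
    rw [hU, ← hm', hP, pMat_sgPerm] at hU1
    rw [← hm']
    refine Equiv.ext fun v => Fin.ext ?_
    rw [CoxTorus.val_sgPerm]
    refine C.root_ext (C.sg_lt m'.2 v.2) v.2 fun j hj => ?_
    have := congrFun (cV_sg C m'.2 v.2) ⟨j, hj⟩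
    rwa [hU1, Matrix.vecMul_one] at this
  rw [show x = 1 from Subtype.ext hx1, orderOf_one] at hx
  exact absurd hx (by norm_num)

end Cfsg.Agent.Lib.Chev.E7SixtyFive
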