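import Cfsg.Agent.Lib.Recog.SympPrimeGraph
import Cfsg.Prelude.Def_Classical
import Mathlib.FieldTheory.Finite.GaloisField

/-!
Elements of order `65` in some groups over fields of `8` and `64` elements.
-/

set_option autoImplicit false

namespace Cfsg.Agent.Lib.Chev.E7SixtyFive

open Matrix

theorem charP_two {F : Type*} [Field F] [Fintype F] {k : ℕ} (h : Fintype.card F = 2 ^ k) : CharP F 2 := by
  obtain ⟨p, hp⟩ := CharP.exists F
  obtain ⟨n, hpp, hn⟩ := FiniteField.card F p
  have h2 : p = 2 := by
    have h1 : p ∣ 2 ^ k := by rw [← h, hn]; exact dvd_pow_self p n.ne_zero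
    exact (Nat.prime_dvd_prime_iff_eq hpp Nat.prime_two).1 (hpp.dvd_of_dvd_pow h1)
  exact h2 ▸ hp

/-- An element of a central quotient stays of the same order along an injective map. -/
theorem order_of_embedding {A B : Type*} [Group A] [Group B] [Finite B] (f : A →* B) (hf : Function.Injective f) {k : ℕ}
    (hk : 0 < k) (a : A ⧸ Subgroup.center A) (ha : orderOf a = k) :
    ∃ b : B ⧸ Subgroup.center B, orderOf b = k := by
  obtain ⟨x, rfl⟩ := QuotientGroup.mk'_surjective (Subgroup.center A) a
  have hdvd : k ∣ orderOf ((f x : B) : B ⧸ Subgroup.center B) := by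
    rw [← ha]
    refine orderOf_dvd_of_pow_eq_one ?_
    have h1 : ((f x ^ orderOf ((f x : B) : B ⧸ Subgroup.center B) : B) : B ⧸ Subgroup.center B) = 1 := by
      rw [QuotientGroup.mk_pow, pow_orderOf_eq_one]
    rw [QuotientGroup.eq_one_iff, ← map_pow] at h1
    rw [← map_pow, QuotientGroup.mk'_apply, QuotientGroup.eq_one_iff, Subgroup.mem_center_iff]
    intro g
    apply hf
    rw [map_mul, map_mul]
    exact Subgroup.mem_center_iff.1 h1 (f g)
  obtain ⟨c, hc⟩ := hdvd
  rcases Nat.eq_zero_or_pos c with rfl | hc0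
  · exact absurd (hc.trans (mul_zero k)) (orderOf_pos _).ne'
  · exact ⟨((f x : B) : B ⧸ Subgroup.center B) ^ c, by
      rw [orderOf_pow' _ hc0.ne', hc, Nat.gcd_mul_left_left, Nat.mul_div_cancel _ hc0]⟩

theorem psp_sixty_five {F : Type*} [Field F] [Fintype F] {n e k : ℕ} (hk : Fintype.card F = 2 ^ k) (he : 1 ≤ e)
    (hen : e ≤ n) (hq : Fintype.card F ^ e + 1 = 65) : ∃ y : Cfsg.PSp n F, orderOf y = 65 := by
  have : CharP F 2 := charP_two hk
  have : Fact (Nat.Prime 2) := ⟨Nat.prime_two⟩
  obtain ⟨t, ht⟩ := Recog.SympPrimeGraph.exists_torus (F := F) 2 he False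
  rw [if_neg not_false, hq] at ht
  exact Recog.SympPrimeGraph.exists_exact
    (Recog.SympPrimeGraph.exists_of_small hen (he.trans hen) t (L := 65) (by decide) (ht ▸ dvd_rfl))

/-- The symplectic group inside the special linear group. -/
def toSL {l : Type*} [Fintype l] [DecidableEq l] {F : Type*} [Field F] {N : ℕ} (e : l ⊕ l ≃ Fin N) :
    ↥(symplecticGroup l F) →* SpecialLinearGroup (Fin N) F where
  toFun A := ⟨Matrix.reindex e e A.1, by rw [Matrix.det_reindex_self]; exact SymplecticGroup.det_eq_one A.2⟩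
  map_one' := Subtype.ext (by simp)
  map_mul' A B := Subtype.ext (by
    show Matrix.reindex e e (A.1 * B.1) = Matrix.reindex e e A.1 * Matrix.reindex e e B.1
    simp only [Matrix.reindex_apply, Matrix.submatrix_mul_equiv])

theorem toSL_injective {l : Type*} [Fintype l] [DecidableEq l] {F : Type*} [Field F] {N : ℕ} (e : l ⊕ l ≃ Fin N) :
    Function.Injective (toSL (F := F) e) := fun A B h =>
  Subtype.ext ((Matrix.reindex e e).injective (congrArg Subtype.val h))

theorem psl_two_sixty_five {F : Type*} [Field F] [Fintype F] (h : Fintype.card F = 64) :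
    ∃ y : ProjectiveSpecialLinearGroup (Fin 2) F, orderOf y = 65 := by
  obtain ⟨a, ha⟩ := psp_sixty_five (F := F) (n := 1) (e := 1) (k := 6) (by omega) le_rfl le_rfl (by rw [h]; norm_num)
  exact order_of_embedding _ (toSL_injective (finSumFinEquiv (m := 1) (n := 1))) (by norm_num) a ha

theorem psl_four_sixty_five {F : Type*} [Field F] [Fintype F] (h : Fintype.card F = 8) :
    ∃ y : ProjectiveSpecialLinearGroup (Fin 4) F, orderOf y = 65 := by
  obtain ⟨a, ha⟩ := psp_sixty_five (F := F) (n := 2) (e := 2) (k := 3) (by omega) (by omega) le_rfl (by rw [h]; norm_num)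
  exact order_of_embedding _ (toSL_injective (finSumFinEquiv (m := 2) (n := 2))) (by norm_num) a ha

theorem exists_trace_one {F K : Type*} [Field F] [Fintype F] [Field K] (hF : Fintype.card F = 8) (i : F →+* K)
    [Fintype K] (hK : Fintype.card K = 64) : ∃ x : K, x + x ^ 8 = 1 := by
  have : CharP K 2 := charP_two (k := 6) hK
  have : Fact (Nat.Prime 2) := ⟨Nat.prime_two⟩
  obtain ⟨w, hw⟩ : ∃ w : K, w + w ^ 8 ≠ 0 := by
    by_contra h
    push Not at h
    have h8 : ∀ w : K, w ^ 8 = w := fun w => by
      have h1 := h w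
      rw [add_eq_zero_iff_eq_neg, CharTwo.neg_eq] at h1
      exact h1.symm
    classical
    have hle : (Finset.univ : Finset K).card ≤ 8 := by
      refine le_trans (Finset.card_le_card (t := (Polynomial.X ^ 8 - Polynomial.X : Polynomial K).roots.toFinset) ?_) ?_
      · intro w _
        rw [Multiset.mem_toFinset, Polynomial.mem_roots (FiniteField.X_pow_card_sub_X_ne_zero K (by norm_num))]
        simp [Polynomial.IsRoot, h8 w]
      · refine (Multiset.toFinset_card_le _).trans ((Polynomial.card_roots' _).trans ?_)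
        rw [FiniteField.X_pow_card_sub_X_natDegree_eq K (by norm_num)]
    rw [Finset.card_univ, hK] at hle
    omega
  set s := w + w ^ 8 with hs
  have hs8 : s ^ 8 = s := by
    rw [hs, show (8 : ℕ) = 2 ^ 3 from rfl, add_pow_char_pow, ← pow_mul, show (2 : ℕ) ^ 3 * 2 ^ 3 = 64 from rfl, ← hK,
      FiniteField.pow_card, add_comm]
  refine ⟨w / s, ?_⟩
  rw [div_pow, hs8, ← add_div, div_self hw]

theorem psu_four_sixty_five {F K : Type*} [Field F] [Fintype F] [Field K] [Fintype K] (hF : Fintype.card F = 8)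
    (hK : Fintype.card K = 64) : ∃ y : Cfsg.PSU 4 K 8, orderOf y = 65 := by
  classical
  have : CharP F 2 := charP_two (k := 3) hF
  have : CharP K 2 := charP_two (k := 6) hK
  have : Fact (Nat.Prime 2) := ⟨Nat.prime_two⟩
  let _ : Algebra (ZMod 2) F := ZMod.algebra F 2
  let _ : Algebra (ZMod 2) K := ZMod.algebra K 2
  obtain ⟨i0⟩ : Nonempty (F →ₐ[ZMod 2] K) := by
    refine FiniteField.nonempty_algHom_of_finrank_dvd ?_
    have e1 : Module.finrank (ZMod 2) F = 3 := by
      refine Nat.pow_right_injective (le_refl 2) ?_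
      show 2 ^ _ = 2 ^ 3
      have := Module.card_eq_pow_finrank (K := ZMod 2) (V := F)
      rw [hF, ZMod.card] at this
      omega
    have e2 : Module.finrank (ZMod 2) K = 6 := by
      refine Nat.pow_right_injective (le_refl 2) ?_
      show 2 ^ _ = 2 ^ 6
      have := Module.card_eq_pow_finrank (K := ZMod 2) (V := K)
      rw [hK, ZMod.card] at this
      omega
    rw [e1, e2]; norm_num
  let i : F →+* K := i0.toRingHom
  have hi8 : ∀ a, i a ^ 8 = i a := fun a => by rw [← map_pow, ← hF, FiniteField.pow_card]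
  obtain ⟨x, hx⟩ := exists_trace_one hF i hK
  obtain ⟨a, ha⟩ := psp_sixty_five (F := F) (n := 2) (e := 2) (k := 3) (by omega) (by omega) le_rfl (by rw [hF]; norm_num)
  -- a change of basis turning the symplectic form into the Hermitian form
  let e : Fin 2 ⊕ Fin 2 ≃ Fin 4 := finSumFinEquiv (m := 2) (n := 2)
  let P : Matrix (Fin 2 ⊕ Fin 2) (Fin 2 ⊕ Fin 2) K := Matrix.fromBlocks 1 (x • 1) 1 ((1 + x) • 1)
  let P' : Matrix (Fin 2 ⊕ Fin 2) (Fin 2 ⊕ Fin 2) K := Matrix.fromBlocks ((1 + x) • 1) (x • 1) 1 1
  have h2 : (2 : K) = 0 := CharTwo.two_eq_zero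
  have hPP' : P * P' = 1 := by
    rw [Matrix.fromBlocks_multiply, ← Matrix.fromBlocks_one]
    congr 1 <;> ext p q <;> fin_cases p <;> fin_cases q <;> simp <;>
      first | linear_combination x * h2 | linear_combination (1 + x) * h2 | linear_combination h2 | linear_combination (1 + 2 * x) * h2
  have hP'P : P' * P = 1 := mul_eq_one_comm.1 hPP'
  have hx8 : (1 + x) ^ 8 = 1 + x ^ 8 := by
    rw [show (8 : ℕ) = 2 ^ 3 from rfl, add_pow_char_pow, one_pow]
  have hx' : x ^ 8 = 1 + x := by linear_combination hx - x * h2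
  have hgram : P.transpose * P.map (· ^ 8) = (Matrix.J (Fin 2) F).map i := by
    rw [Matrix.J, Matrix.fromBlocks_map, Matrix.fromBlocks_map, Matrix.fromBlocks_transpose, Matrix.fromBlocks_multiply]
    congr 1 <;> ext p q <;> fin_cases p <;> fin_cases q <;>
      simp [Matrix.mul_apply, Matrix.map_apply, hx8, hx', Matrix.one_apply] <;> ring_nf <;> simp [h2] <;>
      first
        | linear_combination h2
        | linear_combination 2 * h2
        | exact Or.inr (by linear_combination 2 * h2)
  let conj : ↥(symplecticGroup (Fin 2) F) →* Matrix (Fin 4) (Fin 4) K :=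
    { toFun := fun A => Matrix.reindex e e (P * (A.1.map i) * P')
      map_one' := by simp [hPP']
      map_mul' := fun A B => by
        rw [Submonoid.coe_mul, Matrix.map_mul, Matrix.reindex_apply, Matrix.reindex_apply, Matrix.reindex_apply,
          Matrix.submatrix_mul_equiv]
        congr 1
        calc P * (A.1.map i * B.1.map i) * P' = P * A.1.map i * (P' * P) * B.1.map i * P' := by
              rw [hP'P, mul_one, ← mul_assoc P]
          _ = _ := by simp only [mul_assoc] }
  have hdet : ∀ A, (conj A).det = 1 := fun A => by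
    show (Matrix.reindex e e (P * (A.1.map i) * P')).det = 1
    rw [Matrix.det_reindex_self, Matrix.det_mul, Matrix.det_mul, mul_comm P.det, mul_assoc, ← Matrix.det_mul, hPP',
      Matrix.det_one, mul_one, show A.1.map i = i.mapMatrix A.1 from rfl, ← RingHom.map_det,
      SymplecticGroup.det_eq_one A.2, map_one]
  let f : ↥(symplecticGroup (Fin 2) F) →* SpecialLinearGroup (Fin 4) K :=
    { toFun := fun A => ⟨conj A, hdet A⟩
      map_one' := Subtype.ext (map_one conj)
      map_mul' := fun A B => Subtype.ext (map_mul conj A B) }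
  have hherm : ∀ u v : Fin 4 → K, Cfsg.hermForm 4 K 8 u v = u ⬝ᵥ (fun k => v k ^ 8) := fun u v => rfl
  have hmem : ∀ A, f A ∈ Cfsg.SU 4 K 8 := by
    intro A u v
    show Cfsg.hermForm 4 K 8 (conj A *ᵥ u) (conj A *ᵥ v) = Cfsg.hermForm 4 K 8 u v
    have hfr : (fun k => (conj A *ᵥ v) k ^ 8) = (conj A).map (· ^ 8) *ᵥ (fun k => v k ^ 8) := by
      funext k
      simp only [Matrix.mulVec, dotProduct, Matrix.map_apply]
      rw [show (8 : ℕ) = 2 ^ 3 from rfl, sum_pow_char_pow]
      exact Finset.sum_congr rfl fun _ _ => mul_pow _ _ _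
    rw [hherm, hherm, hfr, Matrix.dotProduct_mulVec, ← Matrix.vecMul_transpose, Matrix.vecMul_vecMul]
    suffices h : (conj A).transpose * (conj A).map (· ^ 8) = 1 by rw [h, Matrix.vecMul_one]
    let φ : K →+* K := iterateFrobenius K 2 3
    have hφ : ∀ M : Matrix (Fin 4) (Fin 4) K, M.map (· ^ 8) = φ.mapMatrix M := fun M => rfl
    have hAJ : (A.1.map i).transpose * (Matrix.J (Fin 2) F).map i * A.1.map i = (Matrix.J (Fin 2) F).map i := by
      rw [← Matrix.transpose_map, ← Matrix.map_mul, ← Matrix.map_mul, SymplecticGroup.mem_iff'.1 A.2]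
    show (Matrix.reindex e e (P * (A.1.map i) * P')).transpose *
      (Matrix.reindex e e (P * (A.1.map i) * P')).map (· ^ 8) = 1
    rw [Matrix.reindex_apply, Matrix.transpose_submatrix, ← Matrix.submatrix_map, Matrix.submatrix_mul_equiv]
    have hm : (P * (A.1.map i) * P').map (· ^ 8) = P.map (· ^ 8) * A.1.map i * P'.map (· ^ 8) := by
      let ψ := φ.mapMatrix (m := Fin 2 ⊕ Fin 2)
      show ψ _ = ψ P * _ * ψ P'
      rw [map_mul, map_mul]
      congr 2
      ext p q
      exact hi8 _
    have hP'8 : P.map (· ^ 8) * P'.map (· ^ 8) = 1 := by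
      let ψ := φ.mapMatrix (m := Fin 2 ⊕ Fin 2)
      show ψ P * ψ P' = 1
      rw [← map_mul, hPP', map_one]
    rw [hm, Matrix.transpose_mul, Matrix.transpose_mul]
    have key : P'.transpose * ((A.1.map i).transpose * P.transpose) * (P.map (· ^ 8) * A.1.map i * P'.map (· ^ 8)) = 1 := by
      calc _ = P'.transpose * ((A.1.map i).transpose * (P.transpose * P.map (· ^ 8)) * A.1.map i) * P'.map (· ^ 8) := by
            simp only [mul_assoc]
        _ = P'.transpose * (P.transpose * P.map (· ^ 8)) * P'.map (· ^ 8) := by rw [hgram, hAJ]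
        _ = (P'.transpose * P.transpose) * (P.map (· ^ 8) * P'.map (· ^ 8)) := by simp only [mul_assoc]
        _ = 1 := by rw [hP'8, ← Matrix.transpose_mul, hPP', Matrix.transpose_one, one_mul]
    rw [key]
    exact Matrix.submatrix_one_equiv _
  have hinj : Function.Injective (f.codRestrict (Cfsg.SU 4 K 8) hmem) := by
    intro A B h
    have h1 : Matrix.reindex e e (P * (A.1.map i) * P') = Matrix.reindex e e (P * (B.1.map i) * P') :=
      congrArg (fun z : ↥(Cfsg.SU 4 K 8) => (z.1 : Matrix (Fin 4) (Fin 4) K)) h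
    have h2 := congrArg (fun Z => P' * Z * P) ((Matrix.reindex e e).injective h1)
    simp only [← mul_assoc, hP'P, one_mul] at h2
    simp only [mul_assoc, hP'P, mul_one] at h2
    exact Subtype.ext (Matrix.map_injective i.injective h2)
  exact order_of_embedding _ hinj (by norm_num) a ha

end Cfsg.Agent.Lib.Chev.E7SixtyFive
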