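import Cfsg.Agent.Lib.Chev.E7SixtyFive.Core
import Cfsg.Agent.Lib.Chev.Orders
import Mathlib.GroupTheory.Nilpotent

/-!
The group E₇(2) has no element of order `65`.
-/

set_option autoImplicit false

namespace Cfsg.Agent.Lib.Chev.E7SixtyFive

open Cfsg.Lie Cfsg.Agent.Lib Cfsg.Agent.Lib.Chev Polynomial Homocyclic
open Cfsg.Agent.Lib.Chev.CoxTorus (wMat sgPerm fnl zpow_eq_iff cast_fnl chrOf_exp conj_decomp' mulVec_eq_zero_iff mono_torus_iff exists_exp)

theorem coefBound : ∀ r < E7.fast.n, ∀ j < E7.fast.l, (E7.fast.cf r j).natAbs < 5 := by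
  have h : (allBelow E7.fast.n fun r => allBelow E7.fast.l fun j => decide ((E7.fast.cf r j).natAbs < 5)) = true := by
    decide +kernel
  simpa [allBelow_iff] using h

theorem ker_two {K : Type*} [Field K] [Fintype K] {k : ℕ} (hK : Fintype.card K = 2 ^ k) (hk : 0 < k) :
    (E7.checked.cartanMap (F := K)).ker = ⊥ := by
  refine Subgroup.eq_bot_of_card_eq _ ((E7.checked.card_ker_cartanMap smith_E7).trans ?_)
  rw [show E7.fast.l = 7 from rfl]
  have h2 : (Fintype.card K - 1).gcd 2 = 1 := by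
    refine (Nat.coprime_two_right.2 ?_)
    rw [hK]
    exact Nat.Even.sub_odd Nat.one_le_two_pow ((Nat.even_pow' hk.ne').2 even_two) odd_one
  simp [Finset.prod_range_succ, h2]

/-- A nonzero root value: coordinates of an element of order dividing a prime `r`. -/
theorem exists_log {K : Type*} [Field K] {r : ℕ} [Fact r.Prime] {ζ : Kˣ} (hζ : orderOf ζ = r)
    (c : Fin chevE7.rank → Kˣ) (hc : (E7.checked.cartanMap c) ^ r = 1) (hc1 : E7.checked.cartanMap c ≠ 1) :
    ∃ a : Fin chevE7.rank → ℤ, (∀ k, E7.checked.cartanMap c k = ζ ^ a k) ∧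
      (fun k => (a k : ZMod r)) ≠ 0 := by
  have hζp : IsPrimitiveRoot ζ r := hζ ▸ IsPrimitiveRoot.orderOf ζ
  have : NeZero r := ⟨(Fact.out : r.Prime).ne_zero⟩
  have hz : ∀ k, ∃ m : ℤ, ζ ^ m = E7.checked.cartanMap c k := by
    intro k
    refine Subgroup.mem_zpowers_iff.1 ?_
    rw [hζp.zpowers_eq, mem_rootsOfUnity, ← Pi.pow_apply, hc, Pi.one_apply]
  choose a ha using hz
  refine ⟨a, fun k => (ha k).symm, fun h0 => hc1 (funext fun k => ?_)⟩
  rw [Pi.one_apply, ← ha, ← zpow_zero ζ, zpow_eq_iff ζ hζ, congrFun h0 k]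
  simp

/-- The relation `χ(σ v)^q = χ(v)` in coordinates. -/
theorem eigen_of_rel {K : Type*} [Field K] {r q : ℕ} [Fact r.Prime] {ζ : Kˣ} (hζ : orderOf ζ = r)
    {c : Fin chevE7.rank → Kˣ} {a : Fin chevE7.rank → ℤ} (ha : ∀ k, E7.checked.cartanMap c k = ζ ^ a k)
    {n : GL chevE7.Idx K} (hn : n ∈ chevE7.monomialSubgroup K)
    (hrel : ∀ v < chevE7.nroots, E7.checked.chrOf (c ^ q) (E7.checked.sg n v) = E7.checked.chrOf c v) :
    (∀ v < chevE7.nroots, fnl E7.fast chevE7 (fun k => (a k : ZMod r)) (E7.checked.sg n⁻¹ v) =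
      (q : ZMod r) * fnl E7.fast chevE7 (fun k => (a k : ZMod r)) v) ∧
      ((wMat E7.checked n⁻¹).map (Int.cast : ℤ → ZMod r)).mulVec (fun k => (a k : ZMod r)) =
        (q : ZMod r) • fun k => (a k : ZMod r) := by
  set C := E7.checked
  set lam : Fin chevE7.rank → ZMod r := fun k => (a k : ZMod r)
  have key : ∀ v < chevE7.nroots, fnl E7.fast chevE7 lam v = (q : ZMod r) * fnl E7.fast chevE7 lam (C.sg n v) := by
    intro w hw
    have h2 := hrel w hw
    rw [chrOf_exp C ha hw, chrOf_exp C (c := c ^ q) (g := ζ) (e := fun k => a k * q) (fun k => by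
      rw [map_pow, Pi.pow_apply, ha, ← zpow_natCast, ← zpow_mul]) (C.sg_lt hn hw), Units.val_inj,
      zpow_eq_iff ζ hζ, cast_fnl, cast_fnl] at h2
    rw [← h2]
    simp only [fnl, Finset.mul_sum, lam]
    exact Finset.sum_congr rfl fun k _ => by push_cast; ring
  have key' : ∀ v < chevE7.nroots, fnl E7.fast chevE7 lam (C.sg n⁻¹ v) = (q : ZMod r) * fnl E7.fast chevE7 lam v := by
    intro v hv
    have h := key _ (C.sg_lt (inv_mem hn) hv)
    rwa [C.sg_sg_inv hn hv] at h
  refine ⟨key', funext fun j => ?_⟩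
  have h := key' _ (C.root.simple_lt j j.2)
  rw [CoxTorus.fnl_simple C] at h
  exact h

theorem torus_pow_eq_one {K : Type*} [Field K] (hinj : Function.Injective (E7.checked.torusHom (F := K)))
    {c : Fin chevE7.rank → Kˣ} {k : ℕ} (h : E7.checked.torus c ^ k = 1) : c ^ k = 1 := by
  apply hinj
  rw [map_pow, map_one]
  exact h

theorem two_pow_twelve : ((2 ^ 12 : ℕ) : ZMod 13) = 1 := by decide

theorem five_eq_zero : (5 : ZMod 5) = 0 := by decide

theorem ord_two_13 : orderOf ((2 : ℕ) : ZMod 13) = 12 := by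
  rw [orderOf_eq_iff (by norm_num)]
  refine ⟨by decide, fun m hm hm0 => ?_⟩
  interval_cases m <;> decide

theorem ord_two_5 : orderOf ((2 : ℕ) : ZMod 5) = 4 := by
  rw [orderOf_eq_iff (by norm_num)]
  refine ⟨by decide, fun m hm hm0 => ?_⟩
  interval_cases m <;> decide

theorem no_sixty_five (x : ↥(chevE7.group (ZMod 2))) : orderOf x ≠ 65 := by
  classical
  intro hx
  have : Fact (Nat.Prime 13) := ⟨by norm_num⟩
  have : Fact (Nat.Prime 5) := ⟨Nat.prime_five⟩
  have : Fact (Nat.Prime 2) := ⟨Nat.prime_two⟩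
  set C := E7.checked with hC
  let L := GaloisField 2 12
  let _ : Fintype L := Fintype.ofFinite L
  have hL : Fintype.card L = 2 ^ 12 := by
    rw [← Nat.card_eq_fintype_card, GaloisField.card 2 12 (by norm_num)]
  obtain ⟨σ, hσ⟩ : ∃ σ : L ≃+* L, ∀ t, σ t = t ^ 2 := exists_frob Nat.prime_two.isPrimePow (by norm_num) hL
  let i : ZMod 2 →+* L := algebraMap (ZMod 2) L
  have hσi : σ.toRingHom.comp i = i := RingHom.ext_zmod _ _
  have hgt : ∀ c : Fin chevE7.rank → Lˣ, gmap chevE7 σ.toRingHom (C.torus c) = C.torus (c ^ 2) := fun c => by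
    rw [C.gmap_torus]
    exact congrArg C.torus (funext fun k => Units.ext (by simp [hσ]))
  have hkL := ker_two (K := L) hL (by norm_num)
  have hinj : Function.Injective (C.cartanMap (F := L)) := (MonoidHom.ker_eq_bot_iff _).1 hkL
  have htinj : Function.Injective (C.torusHom (F := L)) :=
    (MonoidHom.ker_eq_bot_iff _).1 (C.ker_torusHom.trans hkL)
  have hsurj : Function.Surjective (C.cartanMap (F := L)) := Finite.injective_iff_surjective.1 hinj
  have hL1 : Fintype.card Lˣ = 4095 := by rw [Fintype.card_units, hL]; norm_num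
  have hL4 : ∀ c : Fin chevE7.rank → Lˣ, c ^ 4095 = 1 := fun c => funext fun k => by
    rw [Pi.pow_apply, Pi.one_apply, ← hL1, pow_card_eq_one]
  -- the two commuting elements over `L`
  let ι : ↥(chevE7.group (ZMod 2)) →* ↥(chevE7.group L) :=
    { toFun := fun z => ⟨gmap chevE7 i (z : GL chevE7.Idx (ZMod 2)), C.gmap_group i z.2⟩
      map_one' := Subtype.ext (map_one (gmap chevE7 i))
      map_mul' := fun a b => Subtype.ext (map_mul (gmap chevE7 i) _ _) }
  have hιinj : Function.Injective ι := fun a b h => Subtype.ext (gmap_injective i (congrArg Subtype.val h))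
  set X := ι (x ^ 5) with hX
  set Y := ι (x ^ 13) with hY
  have hXo : orderOf X = 13 := by
    rw [hX, orderOf_injective ι hιinj, orderOf_pow, hx]; norm_num
  have hYo : orderOf Y = 5 := by
    rw [hY, orderOf_injective ι hιinj, orderOf_pow, hx]; norm_num
  have hXY : X * Y = Y * X := by
    rw [hX, hY, ← map_mul, ← map_mul, ← pow_add, ← pow_add, add_comm]
  obtain ⟨g, hg⟩ := conj_subgroup C (degs := [2, 6, 8, 10, 12, 14, 18]) (by decide +kernel) (by simp) (r := 13)
    (by norm_num) (by rw [hL]; exact two_pow_twelve) (Subgroup.zpowers X)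
    (IsPGroup.of_card (n := 1) (by rw [Nat.card_zpowers, hXo, pow_one]))
  obtain ⟨c, hc⟩ := C.exists_torus (hg X (Subgroup.mem_zpowers X))
  -- the centraliser and its Sylow subgroup
  let h₀ : ↥(chevE7.group L) := g * X * g⁻¹
  have hh₀ : (h₀ : GL chevE7.Idx L) = C.torus c := hc.symm
  let Cn := Subgroup.centralizer ({h₀} : Set ↥(chevE7.group L))
  have hmemC : ∀ z : Cn, C.torus c * ((z : ↥(chevE7.group L)) : GL chevE7.Idx L) =
      ((z : ↥(chevE7.group L)) : GL chevE7.Idx L) * C.torus c := fun z => by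
    rw [← hh₀]
    exact congrArg Subtype.val (Subgroup.mem_centralizer_iff.1 z.2 h₀ rfl)
  have hcomm : ∀ a b : GL chevE7.Idx L, a ∈ chevE7.diagonalSubgroup L → b ∈ chevE7.diagonalSubgroup L →
      Commute a b := fun a b ha hb => C.diag_comm ha hb
  let R : Subgroup ↥Cn :=
    { carrier := {z | ((z : ↥(chevE7.group L)) : GL chevE7.Idx L) ∈ chevE7.diagonalSubgroup L ∧ z ^ 5 = 1}
      one_mem' := ⟨one_mem (chevE7.diagonalSubgroup L), one_pow 5⟩
      mul_mem' := fun {a b} ha hb => ⟨(chevE7.diagonalSubgroup L).mul_mem ha.1 hb.1, by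
        have h : Commute a b := Subtype.ext (Subtype.ext (hcomm _ _ ha.1 hb.1))
        rw [h.mul_pow, ha.2, hb.2, one_mul]⟩
      inv_mem' := fun {a} ha => ⟨(chevE7.diagonalSubgroup L).inv_mem ha.1, by rw [inv_pow, ha.2, inv_one]⟩ }
  have hR5 : IsPGroup 5 R := fun z => ⟨1, Subtype.ext (by simpa using z.2.2)⟩
  obtain ⟨R', hR'⟩ := hR5.exists_le_sylow
  -- a logarithm of `c`
  have hrM : 13 ∣ Fintype.card Lˣ := by rw [hL1]; norm_num
  obtain ⟨ζ, hζ⟩ := exists_prime_orderOf_dvd_card 13 hrM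
  have hr5 : 5 ∣ Fintype.card Lˣ := by rw [hL1]; norm_num
  obtain ⟨η, hη⟩ := exists_prime_orderOf_dvd_card 5 hr5
  have hc13 : c ^ 13 = 1 := torus_pow_eq_one htinj (by
    rw [← hh₀, ← Subgroup.coe_pow, show h₀ = MulAut.conj g X from rfl, ← map_pow, ← hXo, pow_orderOf_eq_one,
      map_one, Subgroup.coe_one])
  have hc1 : C.cartanMap c ≠ 1 := by
    intro h
    rw [← C.torus_eq_one_iff, ← hh₀] at h
    have h' : MulAut.conj g X = 1 := Subtype.ext h
    rw [MulEquiv.map_eq_one_iff] at h'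
    rw [h', orderOf_one] at hXo
    norm_num at hXo
  obtain ⟨a, ha, ha0⟩ := exists_log hζ c (by rw [← map_pow, hc13, map_one]) hc1
  -- elements of `R` detecting every root
  have hsep : ∀ r, chevE7.IsPosRoot r → ∃ z ∈ R, ∃ e : Fin chevE7.rank → Lˣ,
      ((z : ↥(chevE7.group L)) : GL chevE7.Idx L) = C.torus e ∧ C.chrOf e r ≠ 1 := by
    intro r hr
    obtain ⟨j, hj, hne⟩ := C.exists_coef_ne hr.1
    let e₀ : Fin chevE7.rank → ℤ := fun k => if (k : ℕ) = j then 1 else 0
    obtain ⟨e, he⟩ := hsurj fun k => η ^ e₀ k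
    have he5 : e ^ 5 = 1 := hinj (by
      rw [map_pow, he, map_one]
      funext k
      rw [Pi.pow_apply, Pi.one_apply, ← zpow_natCast, ← zpow_mul, ← zpow_zero η, zpow_eq_iff η hη]
      push_cast
      rw [five_eq_zero, mul_zero])
    have hd := C.torus_mem e
    have hz : (⟨C.torus e, C.diag_le_group hd⟩ : ↥(chevE7.group L)) ∈ Cn := by
      rw [Subgroup.mem_centralizer_iff]
      rintro _ rfl
      exact Subtype.ext (by
        show (h₀ : GL chevE7.Idx L) * C.torus e = C.torus e * h₀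
        rw [hh₀]; exact C.diag_comm (C.torus_mem c) hd)
    refine ⟨⟨_, hz⟩, ⟨hd, Subtype.ext (Subtype.ext ?_)⟩, e, rfl, ?_⟩
    · show C.torus e ^ 5 = 1
      rw [show C.torus e = C.torusHom e from rfl, ← map_pow, he5, map_one]
    · intro h1
      rw [chrOf_exp C (fun k => congrFun he k) hr.1, Units.val_eq_one, ← zpow_zero η, zpow_eq_iff η hη, cast_fnl,
        Int.cast_zero] at h1
      rw [fnl, Finset.sum_eq_single ⟨j, hj⟩ (fun k _ hk => by
        simp [e₀, show (k : ℕ) ≠ j from fun h => hk (Fin.ext h)]) (by simp)] at h1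
      simp only [e₀, if_true, Int.cast_one, mul_one] at h1
      have h2 := (ZMod.intCast_zmod_eq_zero_iff_dvd _ 5).1 h1
      have h3 : (E7.fast.cf r j).natAbs < 5 := coefBound r (C.tables.nroots ▸ hr.1) j (C.tables.rank ▸ hj)
      have h4 : ((E7.fast.aux.coef r j).natAbs) < 5 := h3
      exact hne (Int.eq_zero_of_dvd_of_natAbs_lt_natAbs h2 (by simpa using h4))
  -- `R` is a Sylow subgroup
  have hRR : R = (R' : Subgroup ↥Cn) := by
    by_contra hne
    have hlt : R.subgroupOf (R' : Subgroup ↥Cn) < ⊤ := by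
      rw [lt_top_iff_ne_top, Ne, Subgroup.subgroupOf_eq_top]
      exact fun hle => hne (le_antisymm hR' hle)
    haveI := R'.isPGroup'.isNilpotent
    have hnc := Group.normalizerCondition_of_isNilpotent (G := ↥(R' : Subgroup ↥Cn)) _ hlt
    obtain ⟨w, hwN, hwR⟩ := SetLike.exists_of_lt hnc
    apply hwR
    rw [Subgroup.mem_subgroupOf]
    set z : ↥Cn := w.1 with hz
    set zg : GL chevE7.Idx L := ((z : ↥(chevE7.group L)) : GL chevE7.Idx L) with hzg
    have hzc : ∀ u ∈ R, z * u * z⁻¹ ∈ R := fun u hu => by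
      have := (Subgroup.mem_normalizer_iff.1 hwN ⟨u, hR' hu⟩).1 hu
      exact this
    have hzmono : zg ∈ chevE7.monomialSubgroup L := by
      refine mono_of_pairs C (z : ↥(chevE7.group L)).2
        {p | ∃ u ∈ R, ((u : ↥(chevE7.group L)) : GL chevE7.Idx L) = C.torus p.1 ∧
          (((z * u * z⁻¹ : ↥Cn) : ↥(chevE7.group L)) : GL chevE7.Idx L) = C.torus p.2} ?_ ?_ ?_
      · rintro ⟨e, e'⟩ ⟨u, -, h1, h2⟩
        rw [← h1, ← h2]
        simp only [hzg, Subgroup.coe_mul, Subgroup.coe_inv]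
        group
      · intro r hr
        obtain ⟨u, hu, e, he, hne⟩ := hsep r hr
        obtain ⟨e', he'⟩ := C.exists_torus (hzc u hu).1
        exact ⟨(e, e'), ⟨u, hu, he, he'.symm⟩, hne⟩
      · intro r hr
        obtain ⟨u', hu', e', he', hne⟩ := hsep r hr
        have hu : z⁻¹ * u' * z ∈ R := by
          obtain ⟨u, hu⟩ : ∃ u, u = z⁻¹ * u' * z := ⟨_, rfl⟩
          have := ((Subgroup.mem_normalizer_iff.1 hwN ⟨z⁻¹ * u' * z, mul_mem (mul_mem (inv_mem w.2) (hR' hu')) w.2⟩).2
            (by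
              rw [Subgroup.mem_subgroupOf]
              show z * (z⁻¹ * u' * z) * z⁻¹ ∈ R
              rwa [show z * (z⁻¹ * u' * z) * z⁻¹ = u' by group]))
          exact this
        obtain ⟨e, he⟩ := C.exists_torus hu.1
        refine ⟨(e, e'), ⟨_, hu, he.symm, ?_⟩, hne⟩
        rw [show z * (z⁻¹ * u' * z) * z⁻¹ = u' by group]
        exact he'
    -- the permutation of `z` is trivial
    set n' := gmap chevE7 σ.toRingHom (g : GL chevE7.Idx L) * (g : GL chevE7.Idx L)⁻¹ with hn'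
    obtain ⟨b, hb, n, hn, u, hu, hbnu⟩ := C.exists_bnu
      (mul_mem (C.gmap_group σ.toRingHom g.2) (inv_mem g.2) : n' ∈ chevE7.group L)
    have hrel := (conj_decomp' C hb hn hu (c := c) (c' := c ^ 2) (by
      have hfix : gmap chevE7 σ.toRingHom (X : GL chevE7.Idx L) = X := by
        show gmap chevE7 σ.toRingHom (gmap chevE7 i _) = gmap chevE7 i _
        rw [gmap_gmap, hσi]
      rw [← hbnu, ← hgt, ← hh₀]
      show gmap chevE7 σ.toRingHom ((g * X * g⁻¹ : ↥(chevE7.group L)) : GL chevE7.Idx L) * _ =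
        _ * ((g * X * g⁻¹ : ↥(chevE7.group L)) : GL chevE7.Idx L)
      rw [Subgroup.coe_mul, Subgroup.coe_mul, Subgroup.coe_inv, map_mul, map_mul, map_inv, hfix]
      group)).1
    obtain ⟨heig, -⟩ := eigen_of_rel hζ ha hn hrel
    have hμ : orderOf ((2 : ℕ) : ZMod 13) = 12 := ord_two_13
    have hzfix : ∀ v < chevE7.nroots, fnl E7.fast chevE7 (fun k => (a k : ZMod 13)) (C.sg zg v) =
        fnl E7.fast chevE7 (fun k => (a k : ZMod 13)) v := by
      intro v hv
      have h1 := (mono_torus_iff C hzmono c c).1 (hmemC z).symm v hv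
      rw [chrOf_exp C ha hv, chrOf_exp C ha (C.sg_lt hzmono hv), Units.val_inj, zpow_eq_iff ζ hζ, cast_fnl,
        cast_fnl] at h1
      exact h1
    obtain ⟨k, hk⟩ := R'.isPGroup' w
    have hzk : z ^ 5 ^ k = 1 := congrArg Subtype.val hk
    have hzgk : zg ^ 5 ^ k = 1 := by
      rw [hzg, ← Subgroup.coe_pow, ← Subgroup.coe_pow, hzk]; rfl
    have hperm : ∀ j, (sgPerm (F := L) C (⟨zg, hzmono⟩ : ↥(chevE7.monomialSubgroup L))) ^ 5 ^ j = 1 →
        sgPerm (F := L) C (⟨zg, hzmono⟩ : ↥(chevE7.monomialSubgroup L)) = 1 := by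
      intro j
      induction j with
      | zero => intro h; simpa using h
      | succ j ih =>
        intro h
        apply ih
        set ρ := sgPerm (F := L) C (⟨zg, hzmono⟩ : ↥(chevE7.monomialSubgroup L))
        refine stab_five (inv_mem hn) ha0 hμ heig (pow_mem (MonoidHom.mem_range.2 ⟨⟨zg, hzmono⟩, rfl⟩ : ρ ∈ (sgPerm (F := L) C).range) _) (by rw [← pow_mul, ← pow_succ]; exact h) ?_
        intro v
        have : ∀ m : ℕ, fnl E7.fast chevE7 (fun k => (a k : ZMod 13)) ((ρ ^ m) v : ℕ) =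
            fnl E7.fast chevE7 (fun k => (a k : ZMod 13)) (v : ℕ) := by
          intro m
          induction m with
          | zero => simp
          | succ m ihm =>
            rw [pow_succ', Equiv.Perm.mul_apply]
            exact (hzfix _ (((ρ ^ m) v).2)).trans ihm
        exact this _
    have hρ : sgPerm (F := L) C (⟨zg, hzmono⟩ : ↥(chevE7.monomialSubgroup L)) = 1 :=
      hperm k (by rw [← map_pow, ← map_one (sgPerm (F := L) C)]; exact congrArg _ (Subtype.ext hzgk))
    have hzd : zg ∈ chevE7.diagonalSubgroup L := C.mem_diag_of_sg hzmono fun v hv =>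
      congrArg (fun π : Equiv.Perm (Fin chevE7.nroots) => (π ⟨v, hv⟩ : ℕ)) hρ
    refine ⟨hzd, ?_⟩
    obtain ⟨e, he⟩ := C.exists_torus hzd
    have he1 : e ^ 5 ^ k = 1 := torus_pow_eq_one htinj (by rw [he]; exact hzgk)
    have h5 : orderOf e ∣ 5 := by
      have h1 := orderOf_dvd_of_pow_eq_one he1
      have h2 := orderOf_dvd_of_pow_eq_one (hL4 e)
      obtain ⟨i, -, hi⟩ := (Nat.dvd_prime_pow Nat.prime_five).1 h1
      rw [hi] at h2 ⊢
      rcases Nat.lt_or_ge i 2 with hi2 | hi2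
      · exact pow_dvd_pow 5 (Nat.lt_succ_iff.1 hi2) |>.trans (dvd_of_eq (pow_one 5))
      · exact absurd ((pow_dvd_pow 5 hi2).trans h2) (by norm_num)
    refine Subtype.ext (Subtype.ext ?_)
    show zg ^ 5 = 1
    rw [← he, show C.torus e = C.torusHom e from rfl, ← map_pow, orderOf_dvd_iff_pow_eq_one.1 h5, map_one]
  -- move `Y` into the torus
  have hyC : MulAut.conj g Y ∈ Cn := by
    rw [Subgroup.mem_centralizer_iff]
    rintro _ rfl
    exact (Commute.map (hXY : Commute X Y) (MulAut.conj g).toMonoidHom).eq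
  let y₁ : ↥Cn := ⟨MulAut.conj g Y, hyC⟩
  have hy₁ : orderOf y₁ = 5 := by
    rw [← Subgroup.orderOf_coe]
    exact (orderOf_injective (MulAut.conj g).toMonoidHom (MulAut.conj g).injective Y).trans hYo
  obtain ⟨R₂, hR₂⟩ := (IsPGroup.of_card (n := 1) (by rw [Nat.card_zpowers, hy₁, pow_one]) :
    IsPGroup 5 (Subgroup.zpowers y₁)).exists_le_sylow
  obtain ⟨m, hm⟩ := MulAction.exists_smul_eq ↥Cn R₂ R'
  have hy₂ : m * y₁ * m⁻¹ ∈ R := by
    rw [hRR, ← hm, Sylow.smul_def, Sylow.pointwise_smul_def, Subgroup.mem_pointwise_smul_iff_inv_smul_mem]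
    simp only [← map_inv, MulAut.smul_def, MulAut.conj_apply, inv_inv]
    rw [show m⁻¹ * (m * y₁ * m⁻¹) * m = y₁ by group]
    exact hR₂ (Subgroup.mem_zpowers y₁)
  obtain ⟨e, he⟩ := C.exists_torus hy₂.1
  set g2 : GL chevE7.Idx L := ((m : ↥(chevE7.group L)) : GL chevE7.Idx L) * (g : GL chevE7.Idx L) with hg2
  have hg2m : g2 ∈ chevE7.group L := mul_mem (m : ↥(chevE7.group L)).2 g.2
  have hXe : g2 * (X : GL chevE7.Idx L) * g2⁻¹ = C.torus c := by
    calc g2 * (X : GL chevE7.Idx L) * g2⁻¹ =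
        ((m : ↥(chevE7.group L)) : GL chevE7.Idx L) * (h₀ : GL chevE7.Idx L) * (((m : ↥(chevE7.group L)) : GL chevE7.Idx L))⁻¹ := by
          show _ = _ * ((g * X * g⁻¹ : ↥(chevE7.group L)) : GL chevE7.Idx L) * _
          rw [Subgroup.coe_mul, Subgroup.coe_mul, Subgroup.coe_inv, hg2]; group
      _ = C.torus c := by rw [hh₀, ← hmemC m, mul_inv_cancel_right]
  have hYe : g2 * (Y : GL chevE7.Idx L) * g2⁻¹ = C.torus e := by
    rw [he]
    show _ = (((m * y₁ * m⁻¹ : ↥Cn) : ↥(chevE7.group L)) : GL chevE7.Idx L)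
    simp only [Subgroup.coe_mul, Subgroup.coe_inv]
    show _ = _ * ((g * Y * g⁻¹ : ↥(chevE7.group L)) : GL chevE7.Idx L) * _
    rw [Subgroup.coe_mul, Subgroup.coe_mul, Subgroup.coe_inv, hg2]; group
  -- both eigen relations
  obtain ⟨b, hb, n, hn, u, hu, hbnu⟩ := C.exists_bnu
    (mul_mem (C.gmap_group σ.toRingHom hg2m) (inv_mem hg2m))
  have hrel : ∀ (Z : ↥(chevE7.group L)) (w : ↥(chevE7.group (ZMod 2))) (d : Fin chevE7.rank → Lˣ), Z = ι w →
      g2 * (Z : GL chevE7.Idx L) * g2⁻¹ = C.torus d →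
      ∀ v < chevE7.nroots, C.chrOf (d ^ 2) (C.sg n v) = C.chrOf d v := by
    intro Z w d hZ hd
    refine (conj_decomp' C hb hn hu ?_).1
    have hfix : gmap chevE7 σ.toRingHom (Z : GL chevE7.Idx L) = Z := by
      subst hZ
      show gmap chevE7 σ.toRingHom (gmap chevE7 i _) = gmap chevE7 i _
      rw [gmap_gmap, hσi]
    rw [← hbnu, ← hgt, ← hd, map_mul, map_mul, map_inv, hfix]
    group
  have he5 : e ^ 5 = 1 := torus_pow_eq_one htinj (by
    rw [he]
    exact congrArg (fun z : ↥Cn => ((z : ↥(chevE7.group L)) : GL chevE7.Idx L)) hy₂.2)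
  have he1 : C.cartanMap e ≠ 1 := by
    intro h
    rw [← C.torus_eq_one_iff, ← hYe, mul_inv_eq_one, mul_eq_left] at h
    have h' : Y = 1 := Subtype.ext h
    rw [h', orderOf_one] at hYo
    norm_num at hYo
  obtain ⟨a5, ha5, ha50⟩ := exists_log hη e (by rw [← map_pow, he5, map_one]) he1
  obtain ⟨-, heig13⟩ := eigen_of_rel hζ ha hn (hrel X _ c hX hXe)
  obtain ⟨-, heig5⟩ := eigen_of_rel hη ha5 hn (hrel Y _ e hY hYe)
  -- the characteristic polynomial
  set M := wMat C n⁻¹ with hMdef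
  set P := Nat.card (C.W L) with hPdef
  have hP0 : 0 < P := Nat.card_pos
  have hP : P = 2903040 := by
    have h2 : ((P : ℕ) : ℤ) = 2903040 := by
      rw [hPdef, C.card_W, C.tables.rank]; decide +kernel
    exact_mod_cast h2
  have hMP : M ^ P = 1 := wMat_pow_card C (inv_mem hn)
  obtain ⟨s, hs, hchar, hsum⟩ := exists_multiset hP0 hMP
  have h13 : ¬ 13 ∣ P := by rw [hP]; norm_num
  have hμ13 : orderOf ((2 : ℕ) : ZMod 13) = 12 := ord_two_13
  have hμ5 : orderOf ((2 : ℕ) : ZMod 5) = 4 := ord_two_5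
  have h12 : 1 ≤ s.count 12 := by
    refine le_trans ?_ (finrank_eigen_le h13 hs hchar hμ13)
    refine Nat.one_le_iff_ne_zero.2 fun h => ha0 ?_
    rw [Submodule.finrank_eq_zero, Submodule.eq_bot_iff] at h
    exact h _ (by rw [Module.End.mem_eigenspace_iff, Matrix.toLin'_apply]; exact heig13)
  obtain ⟨f, hf, hf0⟩ : ∃ f ∈ s, (cyclotomic f (ZMod 5)).eval ((2 : ℕ) : ZMod 5) = 0 := by
    have h1 : (M.map (Int.cast : ℤ → ZMod 5)).charpoly.eval ((2 : ℕ) : ZMod 5) = 0 := by
      rw [Matrix.eval_charpoly]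
      refine Matrix.exists_mulVec_eq_zero_iff.1 ⟨_, ha50, ?_⟩
      rw [Matrix.sub_mulVec, sub_eq_zero, heig5]
      funext k
      simp [Matrix.mulVec_diagonal]
    rw [show M.map (Int.cast : ℤ → ZMod 5) = M.map (Int.castRingHom (ZMod 5)) from rfl, Matrix.charpoly_map, hchar,
      Polynomial.map_multiset_prod, Multiset.map_map, eval_multiset_prod, Multiset.prod_eq_zero_iff,
      Multiset.map_map, Multiset.mem_map] at h1
    obtain ⟨f, hf, h2⟩ := h1
    exact ⟨f, hf, by simpa using h2⟩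
  have hf4 : f = 4 := by
    have hf0' : 0 < f := Nat.pos_of_dvd_of_pos (hs f hf) hP0
    obtain ⟨i, f', hf', rfl⟩ := Nat.exists_eq_pow_mul_and_not_dvd hf0'.ne' 5 (by norm_num)
    have hroot : (cyclotomic f' (ZMod 5)).eval ((2 : ℕ) : ZMod 5) = 0 := by
      rcases Nat.eq_zero_or_pos i with rfl | hi
      · simpa using hf0
      · rw [cyclotomic_mul_prime_pow_eq (ZMod 5) hf' hi, eval_pow] at hf0
        exact pow_eq_zero_iff'.1 hf0 |>.1
    have : NeZero (f' : ZMod 5) := ⟨fun h => hf' ((ZMod.natCast_eq_zero_iff f' 5).1 h)⟩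
    have hf4' : f' = 4 := by
      rw [← hμ5]
      exact (isRoot_cyclotomic_iff.1 hroot).eq_orderOf
    subst hf4'
    rcases Nat.eq_zero_or_pos i with rfl | hi
    · rfl
    exfalso
    have h1 : 8 ≤ (5 ^ i * 4).totient := by
      rw [Nat.totient_mul (Nat.Coprime.pow_left i (by norm_num)), Nat.totient_prime_pow Nat.prime_five hi,
        show Nat.totient 4 = 2 by decide]
      have := Nat.one_le_pow (i - 1) 5 (by norm_num)
      omega
    have h2 : (5 ^ i * 4).totient ≤ (s.map Nat.totient).sum :=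
      Multiset.le_sum_of_mem (Multiset.mem_map_of_mem _ hf)
    rw [hsum, rank_E7] at h2
    omega
  subst hf4
  obtain ⟨s₁, rfl⟩ := Multiset.exists_cons_of_mem (Multiset.count_pos.1 h12)
  have hf1 : (4 : ℕ) ∈ s₁ := by
    rcases Multiset.mem_cons.1 hf with h | h
    · norm_num at h
    · exact h
  obtain ⟨s₂, rfl⟩ := Multiset.exists_cons_of_mem hf1
  rw [Multiset.map_cons, Multiset.sum_cons, Multiset.map_cons, Multiset.sum_cons, show Nat.totient 12 = 4 by decide,
    show Nat.totient 4 = 2 by decide, rank_E7] at hsum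
  obtain ⟨e', hes⟩ : ∃ e', e' ∈ s₂ := by
    rcases Multiset.empty_or_exists_mem s₂ with h | h
    · subst h; simp at hsum
    · exact h
  obtain ⟨s₃, rfl⟩ := Multiset.exists_cons_of_mem hes
  rw [Multiset.map_cons, Multiset.sum_cons] at hsum
  have hpos' : ∀ y ∈ (12 ::ₘ 4 ::ₘ e' ::ₘ s₃ : Multiset ℕ), 0 < y.totient := fun y hy =>
    Nat.totient_pos.2 (Nat.pos_of_dvd_of_pos (hs y hy) hP0)
  have hte := hpos' e' (by simp)
  obtain rfl : s₃ = 0 := by
    rcases Multiset.empty_or_exists_mem s₃ with h | ⟨y, hy⟩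
    · exact h
    · have := hpos' y (by simp [hy])
      have := Multiset.le_sum_of_mem (Multiset.mem_map_of_mem Nat.totient hy)
      omega
  have he12 : e' = 1 ∨ e' = 2 := Nat.totient_eq_one_iff.1 (by simp at hsum; omega)
  obtain ⟨ε, hε, hεo, hεc⟩ := orderOf_sign he12
  have h0 := aeval_eq_zero_of_top hP0 hMP hs hchar (t := {e', 4, 12}) (fun y hy => by
    simp only [Multiset.mem_cons, Multiset.notMem_zero, or_false] at hy
    simp only [Finset.mem_insert, Finset.mem_singleton]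
    omega)
  have h6 : (cyclotomic 4 ℤ * cyclotomic 12 ℤ) = (Polynomial.X : Polynomial ℤ) ^ 6 + 1 := by
    rw [show (12 : ℕ) = 6 * 2 from rfl, ← cyclotomic_expand_eq_cyclotomic Nat.prime_two (by norm_num : (2 : ℕ) ∣ 6) ℤ,
      cyclotomic_six, show (4 : ℕ) = 2 ^ (1 + 1) from rfl, cyclotomic_prime_pow_eq_geom_sum Nat.prime_two,
      Finset.sum_range_succ, Finset.sum_range_succ, Finset.sum_range_zero]
    simp [map_add, map_sub]
    ring
  rw [Finset.prod_insert (by simp; omega), Finset.prod_pair (by norm_num), hεc, h6] at h0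
  simp only [map_mul, map_sub, map_add, map_pow, aeval_X, map_one, aeval_C] at h0
  set n₃ : GL chevE7.Idx L := n⁻¹ ^ 3 with hn₃
  set N := M ^ 3 * M ^ 3 + 1 with hN
  have hN' : N = M ^ 6 + 1 := by rw [hN, ← pow_add]
  rw [← hN', sub_mul, sub_eq_zero, ← Algebra.smul_def] at h0
  have hε2 : ε * ε = 1 := by rcases hε with rfl | rfl <;> norm_num
  have hM3N : M ^ 3 * N = ε • N := by
    rw [show M ^ 3 = M * M * M by rw [pow_succ, pow_two], mul_assoc, mul_assoc, h0, Matrix.mul_smul, h0, smul_smul,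
      hε2, one_smul, h0]
  refine e7_core (pow_mem (inv_mem hn) 3) hε2 (M := M ^ 3) (CoxTorus.wMat_pow C (inv_mem hn) 3).symm hN hM3N
    (minors_of_next hP0 hs hchar ?_ hεo h0)
  rcases he12 with rfl | rfl <;> simp

end Cfsg.Agent.Lib.Chev.E7SixtyFive
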